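import Mathlib
import Cfsg.Prelude.Def_Sz
import Cfsg.Prelude.Def_Classical

/-!
# S3664 (team project PG63): groups of arbitrarily large order with the prime graph of `PSp₆(3)`

The prime graph of `PSp₆(3)`: vertices `2, 3, 5, 7, 13`, edges `2-3, 2-5, 3-5, 2-7`.
The groups: `H_k = W^k ⋊ L`, `L = Sz(8) ⋊ ⟨frobenius⟩`, `W = M₄(F₈)` with
`(g, τ) • X = g * X^τ * (g^(2))ᵀ`.

This file: definitions and the exact statements of the packages.
-/

set_option autoImplicit false

namespace Cfsg.Agent.Lib.Helper14.PG63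

open Matrix

universe u v

/-- the edges of the prime graph of `PSp₆(3)` -/
def E (p q : ℕ) : Prop :=
  (p = 2 ∧ q = 3) ∨ (p = 3 ∧ q = 2) ∨ (p = 2 ∧ q = 5) ∨ (p = 5 ∧ q = 2) ∨
    (p = 3 ∧ q = 5) ∨ (p = 5 ∧ q = 3) ∨ (p = 2 ∧ q = 7) ∨ (p = 7 ∧ q = 2)

/-- the vertices of the prime graph of `PSp₆(3)` -/
def Vx (p : ℕ) : Prop := p = 2 ∨ p = 3 ∨ p = 5 ∨ p = 7 ∨ p = 13

/-! ## Matrices -/

section Mat

variable {F : Type u} [Field F]

/-- the matrix of the form: ones on the antidiagonal -/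
def J4 (F : Type u) [Field F] : Matrix (Fin 4) (Fin 4) F :=
  !![0, 0, 0, 1; 0, 0, 1, 0; 0, 1, 0, 0; 1, 0, 0, 0]

/-- `M` preserves the form and `M* = M^θ` with `θ(x) = x ^ 4` (the elements of `Sz(8)`). -/
def Pred (M : Matrix (Fin 4) (Fin 4) F) : Prop :=
  Mᵀ * J4 F * M = J4 F ∧ Cfsg.Lie.star4 M = M.map (fun x => x ^ 4)

/-- the elements `T(0, b) * w` -/
def N (b : F) : Matrix (Fin 4) (Fin 4) F :=
  !![b ^ 4, b, 0, 1; b, 0, 1, 0; 0, 1, 0, 0; 1, 0, 0, 0]

/-- a matrix fixed by `N a` when `a ^ 3 = a + 1` -/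
def X7 (a : F) : Matrix (Fin 4) (Fin 4) F :=
  !![0, 0, 1, a ^ 2 + a; 0, 0, a ^ 2, a ^ 2 + 1; a ^ 2 + 1, a ^ 2, 0, 0; a ^ 2 + a, 1, 0, 0]

end Mat

/-! ## The groups -/

section AbstractSemi

variable {G : Type u} {V : Type v} [Group G] [AddCommGroup V] [DistribMulAction G V]

/-- the action, as automorphisms of the multiplicative copy of the module -/
def affHom (G : Type u) (V : Type v) [Group G] [AddCommGroup V] [DistribMulAction G V] :
    G →* MulAut (Multiplicative V) where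
  toFun g :=
    { toFun := fun w => Multiplicative.ofAdd (g • Multiplicative.toAdd w)
      invFun := fun w => Multiplicative.ofAdd (g⁻¹ • Multiplicative.toAdd w)
      left_inv := fun w => by
        show Multiplicative.ofAdd (g⁻¹ • (g • Multiplicative.toAdd w)) = w
        rw [inv_smul_smul]
        rfl
      right_inv := fun w => by
        show Multiplicative.ofAdd (g • (g⁻¹ • Multiplicative.toAdd w)) = w
        rw [smul_inv_smul]
        rfl
      map_mul' := fun w w' => by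
        show Multiplicative.ofAdd (g • (Multiplicative.toAdd w + Multiplicative.toAdd w')) =
          Multiplicative.ofAdd (g • Multiplicative.toAdd w + g • Multiplicative.toAdd w')
        rw [smul_add] }
  map_one' := by
    apply MulEquiv.ext
    intro w
    show Multiplicative.ofAdd ((1 : G) • Multiplicative.toAdd w) = w
    rw [one_smul]
    rfl
  map_mul' g g' := by
    apply MulEquiv.ext
    intro w
    show Multiplicative.ofAdd ((g * g') • Multiplicative.toAdd w) =
      Multiplicative.ofAdd (g • (g' • Multiplicative.toAdd w))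
    rw [mul_smul]

theorem affHom_apply (g : G) (w : Multiplicative V) :
    affHom G V g w = Multiplicative.ofAdd (g • Multiplicative.toAdd w) := rfl

/-- some element of order `p` has a nonzero fixed vector -/
def Fx (G : Type u) (V : Type v) [Group G] [AddCommGroup V] [DistribMulAction G V] (p : ℕ) :
    Prop :=
  ∃ g : G, orderOf g = p ∧ ∃ v : V, v ≠ 0 ∧ g • v = v

end AbstractSemi

section Grp

variable (F : Type u) [Field F]

/-- the entrywise action of a ring automorphism on `GL₄` -/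
def mapEquiv (τ : RingAut F) : MulAut (GL (Fin 4) F) where
  toFun := Matrix.GeneralLinearGroup.map (RingEquiv.toRingHom τ)
  invFun := Matrix.GeneralLinearGroup.map (RingEquiv.toRingHom τ.symm)
  left_inv g := by
    apply Units.ext
    ext i j
    simp [Matrix.GeneralLinearGroup.map]
  right_inv g := by
    apply Units.ext
    ext i j
    simp [Matrix.GeneralLinearGroup.map]
  map_mul' g h := map_mul _ g h

theorem mapEquiv_coe (τ : RingAut F) (g : GL (Fin 4) F) :
    ((mapEquiv F τ g : GL (Fin 4) F) : Matrix (Fin 4) (Fin 4) F) =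
      (g : Matrix (Fin 4) (Fin 4) F).map τ := rfl

/-- the entrywise action of the ring automorphisms on `GL₄` -/
def mapHom : RingAut F →* MulAut (GL (Fin 4) F) where
  toFun := mapEquiv F
  map_one' := by
    apply MulEquiv.ext
    intro g
    apply Units.ext
    ext i j
    rfl
  map_mul' τ τ' := by
    apply MulEquiv.ext
    intro g
    apply Units.ext
    ext i j
    rfl

theorem mapHom_coe (τ : RingAut F) (g : GL (Fin 4) F) :
    ((mapHom F τ g : GL (Fin 4) F) : Matrix (Fin 4) (Fin 4) F) =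
      (g : Matrix (Fin 4) (Fin 4) F).map τ := rfl

/-- the ambient group `GL₄(F) ⋊ Aut(F)` -/
abbrev Amb : Type u := GL (Fin 4) F ⋊[mapHom F] RingAut F

end Grp

section Char2

variable (F : Type u) [Field F] [Fintype F] [CharP F 2]

/-- the Frobenius automorphism `x ↦ x ^ 2` -/
noncomputable def frobAut : RingAut F := frobeniusEquiv F 2

theorem frobAut_apply (x : F) : frobAut F x = x ^ 2 := rfl

/-- the matrix of squares -/
def sqm (M : Matrix (Fin 4) (Fin 4) F) : Matrix (Fin 4) (Fin 4) F := M.map (fun x => x ^ 2)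

theorem sqm_apply (M : Matrix (Fin 4) (Fin 4) F) (i j : Fin 4) : sqm F M i j = M i j ^ 2 := rfl

theorem sqm_eq (M : Matrix (Fin 4) (Fin 4) F) : sqm F M = M.map (frobenius F 2) := rfl

theorem sqm_mul (M M' : Matrix (Fin 4) (Fin 4) F) : sqm F (M * M') = sqm F M * sqm F M' := by
  rw [sqm_eq, sqm_eq, sqm_eq, Matrix.map_mul]

theorem sqm_one : sqm F (1 : Matrix (Fin 4) (Fin 4) F) = 1 := by
  rw [sqm_eq, Matrix.map_one] <;> simp

theorem sqm_map (τ : RingAut F) (M : Matrix (Fin 4) (Fin 4) F) :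
    sqm F (M.map τ) = (sqm F M).map τ := by
  ext i j
  simp [sqm]

/-- the action on `W = M₄(F)`: `(g, τ) • X = g * X^τ * (g^(2))ᵀ` -/
def act (x : Amb F) (X : Matrix (Fin 4) (Fin 4) F) : Matrix (Fin 4) (Fin 4) F :=
  (x.left : Matrix (Fin 4) (Fin 4) F) * X.map x.right *
    (sqm F (x.left : Matrix (Fin 4) (Fin 4) F))ᵀ

instance instDMA : DistribMulAction (Amb F) (Matrix (Fin 4) (Fin 4) F) where
  smul := act F
  one_smul X := by
    show act F 1 X = X
    unfold act
    rw [SemidirectProduct.one_left, SemidirectProduct.one_right, Units.val_one, sqm_one,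
      Matrix.transpose_one, Matrix.one_mul, Matrix.mul_one]
    ext i j
    rfl
  mul_smul x y X := by
    show act F (x * y) X = act F x (act F y X)
    unfold act
    rw [SemidirectProduct.mul_left, SemidirectProduct.mul_right, Units.val_mul, mapHom_coe,
      sqm_mul, Matrix.transpose_mul, sqm_map]
    have h1 : X.map (x.right * y.right) = (X.map y.right).map x.right := by
      ext i j
      rfl
    have h2 : ((y.left : Matrix (Fin 4) (Fin 4) F) * X.map y.right *
        (sqm F (y.left : Matrix (Fin 4) (Fin 4) F))ᵀ).map x.right =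
        (y.left : Matrix (Fin 4) (Fin 4) F).map x.right * (X.map y.right).map x.right *
          ((sqm F (y.left : Matrix (Fin 4) (Fin 4) F)).map x.right)ᵀ := by
      have e := Matrix.map_mul (L := (y.left : Matrix (Fin 4) (Fin 4) F) * X.map y.right)
        (M := (sqm F (y.left : Matrix (Fin 4) (Fin 4) F))ᵀ) (f := RingEquiv.toRingHom x.right)
      have e' := Matrix.map_mul (L := (y.left : Matrix (Fin 4) (Fin 4) F))
        (M := X.map y.right) (f := RingEquiv.toRingHom x.right)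
      rw [e'] at e
      exact e
    rw [h1, h2]
    simp only [Matrix.mul_assoc]
  smul_zero x := by
    show act F x 0 = 0
    unfold act
    have h : (0 : Matrix (Fin 4) (Fin 4) F).map x.right = 0 := by
      ext i j
      simp
    rw [h, Matrix.mul_zero, Matrix.zero_mul]
  smul_add x X Y := by
    show act F x (X + Y) = act F x X + act F x Y
    unfold act
    have h : (X + Y).map x.right = X.map x.right + Y.map x.right := by
      ext i j
      simp
    rw [h, Matrix.mul_add, Matrix.add_mul]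

theorem smul_def (x : Amb F) (X : Matrix (Fin 4) (Fin 4) F) :
    x • X = (x.left : Matrix (Fin 4) (Fin 4) F) * X.map x.right *
      (sqm F (x.left : Matrix (Fin 4) (Fin 4) F))ᵀ := rfl

/-- `L = Sz(8) ⋊ ⟨frobenius⟩`, as the subgroup of the ambient group generated by the elements
`(g, 1)`, `Pred g`, and `(1, frobenius)`. -/
def L : Subgroup (Amb F) :=
  Subgroup.closure ({x : Amb F | Pred (x.left : Matrix (Fin 4) (Fin 4) F) ∧ x.right = 1} ∪
    {SemidirectProduct.inr (frobAut F)})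

/-- the module `W ^ k` -/
abbrev Wk (k : ℕ) : Type u := Fin k → Matrix (Fin 4) (Fin 4) F

/-- the groups `H_k = W^k ⋊ L` -/
abbrev Hk (k : ℕ) : Type u := Multiplicative (Wk F k) ⋊[affHom ↥(L F) (Wk F k)] ↥(L F)

end Char2

/-! ## The packages (exact statements) -/

/-- [PM] `Pred` is closed under products (`star4` is multiplicative on form-preserving matrices
in characteristic 2). -/
def PM : Prop :=
  ∀ {F : Type u} [Field F] [CharP F 2] (M M' : Matrix (Fin 4) (Fin 4) F),
    Pred M → Pred M' → Pred (M * M')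

/-- [PI] `Pred` is closed under inverses. -/
def PI : Prop :=
  ∀ {F : Type u} [Field F] [CharP F 2] (M M' : Matrix (Fin 4) (Fin 4) F),
    Pred M → M * M' = 1 → Pred M'

/-- [PMAP] `Pred` is preserved by entrywise ring homomorphisms. -/
def PMap : Prop :=
  ∀ {F : Type u} [Field F] (τ : F →+* F) (M : Matrix (Fin 4) (Fin 4) F),
    Pred M → Pred (M.map τ)

/-- [CH] Cayley–Hamilton with the coefficients forced by `Pred`. -/
def CH : Prop :=
  ∀ {F : Type u} [Field F] [Fintype F] [CharP F 2], Fintype.card F = 8 →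
    ∀ M : Matrix (Fin 4) (Fin 4) F, Pred M →
      M ^ 4 + M.trace • M ^ 3 + M.trace ^ 4 • M ^ 2 + M.trace • M + 1 = 0

/-- [CLS] the elements by their trace. -/
def Cls : Prop :=
  ∀ {F : Type u} [Field F] [Fintype F] [CharP F 2], Fintype.card F = 8 →
    ∀ M : Matrix (Fin 4) (Fin 4) F, Pred M →
      (M.trace = 0 ∧ M ^ 4 = 1) ∨ (M.trace = 1 ∧ M ^ 5 = 1) ∨
        (M.trace ^ 3 = M.trace + 1 ∧ M ^ 7 = 1) ∨ (M.trace ^ 3 = M.trace ^ 2 + 1 ∧ M ^ 13 = 1)

/-- [FPF] the elements of order 13 have no nonzero fixed point on `W`. -/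
def Fpf : Prop :=
  ∀ {F : Type u} [Field F] [Fintype F] [CharP F 2], Fintype.card F = 8 →
    ∀ t X : Matrix (Fin 4) (Fin 4) F, Pred t → t ^ 13 = 1 → t ≠ 1 →
      t * X * (sqm F t)ᵀ = X → X = 0

/-- [EX] explicit elements. -/
def Ex : Prop :=
  ∀ {F : Type u} [Field F] [Fintype F] [CharP F 2], Fintype.card F = 8 →
    ∃ a : F, a ^ 3 = a + 1 ∧ Pred (J4 F) ∧ Pred (N (1 : F)) ∧ Pred (N a) ∧ Pred (N (a + 1)) ∧
      sqm F (J4 F) = J4 F ∧ sqm F (N (1 : F)) = N 1 ∧
      N (1 : F) * J4 F * (sqm F (N (1 : F)))ᵀ = J4 F ∧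
      N a * X7 a * (sqm F (N a))ᵀ = X7 a ∧ X7 a ≠ 0 ∧ J4 F ≠ 0 ∧
      J4 F * J4 F = 1 ∧ J4 F ≠ 1 ∧
      N (1 : F) ^ 5 = 1 ∧ N (1 : F) ≠ 1 ∧ N a ^ 7 = 1 ∧ N a ≠ 1 ∧
      N (a + 1) ^ 13 = 1 ∧ N (a + 1) ≠ 1

/-- [FROB] the Frobenius automorphism of the field with 8 elements. -/
def Frob : Prop :=
  ∀ {F : Type u} [Field F] [Fintype F] [CharP F 2], Fintype.card F = 8 →
    orderOf (frobAut F) = 3 ∧
      ∀ τ ∈ Subgroup.zpowers (frobAut F), τ ≠ 1 → ∀ c : F, τ c = c → c = 0 ∨ c = 1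

/-- [STR] the elements of `L`. -/
def Str : Prop :=
  ∀ {F : Type u} [Field F] [Fintype F] [CharP F 2], Fintype.card F = 8 →
    ∀ x ∈ L F, Pred (x.left : Matrix (Fin 4) (Fin 4) F) ∧
      x.right ∈ Subgroup.zpowers (frobAut F)

/-- [LORD] the products of two primes among the element orders of `L`. -/
def LOrd : Prop :=
  ∀ {F : Type u} [Field F] [Fintype F] [CharP F 2], Fintype.card F = 8 →
    ∀ (x : ↥(L F)) (r s : ℕ), r.Prime → s.Prime → r ≠ s → orderOf x = r * s →
      (r = 2 ∧ s = 3) ∨ (r = 3 ∧ s = 2) ∨ (r = 3 ∧ s = 5) ∨ (r = 5 ∧ s = 3)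

/-- [LPRIME] the prime element orders of `L`. -/
def LPrime : Prop :=
  ∀ {F : Type u} [Field F] [Fintype F] [CharP F 2], Fintype.card F = 8 →
    ∀ (x : ↥(L F)) (p : ℕ), p.Prime → orderOf x = p → Vx p

/-- [LFPF] the elements of order 13 of `L` have no nonzero fixed point on `W`. -/
def LFpf : Prop :=
  ∀ {F : Type u} [Field F] [Fintype F] [CharP F 2], Fintype.card F = 8 →
    ∀ x : ↥(L F), orderOf x = 13 → ∀ X : Matrix (Fin 4) (Fin 4) F, x • X = X → X = 0

/-- [LEX] elements of `L`. -/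
def LEx : Prop :=
  ∀ {F : Type u} [Field F] [Fintype F] [CharP F 2], Fintype.card F = 8 →
    (∃ x : ↥(L F), orderOf x = 6) ∧ (∃ x : ↥(L F), orderOf x = 15) ∧
      (∃ x : ↥(L F), orderOf x = 13) ∧
      (∃ x : ↥(L F), orderOf x = 5 ∧ ∃ X : Matrix (Fin 4) (Fin 4) F, X ≠ 0 ∧ x • X = X) ∧
      (∃ x : ↥(L F), orderOf x = 7 ∧ ∃ X : Matrix (Fin 4) (Fin 4) F, X ≠ 0 ∧ x • X = X)

/-- [PGE] the prime graph of a split extension by an elementary abelian 2-group. -/
def PgExt : Prop :=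
  ∀ {G : Type u} {V : Type u} [Group G] [AddCommGroup V] [DistribMulAction G V],
    (∀ v : V, v + v = 0) → ∀ r s : ℕ, r.Prime → s.Prime → r ≠ s →
      ((∃ y : Multiplicative V ⋊[affHom G V] G, orderOf y = r * s) ↔
        ((∃ x : G, orderOf x = r * s) ∨ (s = 2 ∧ Fx G V r) ∨ (r = 2 ∧ Fx G V s)))

/-- [PSPV] the primes dividing the order of `PSp₆(3)`. -/
def PSpV : Prop :=
  ∀ {F : Type u} [Field F] [Fintype F], Fintype.card F = 3 →
    ∀ p : ℕ, p.Prime → (p ∣ Nat.card (Cfsg.PSp 3 F) ↔ Vx p)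

/-- [PSPY2] `PSp₆(3)` has elements of order `6`, `10`, `14`. -/
def PSpY2 : Prop :=
  ∀ {F : Type u} [Field F] [Fintype F], Fintype.card F = 3 →
    (∃ g : Cfsg.PSp 3 F, orderOf g = 6) ∧ (∃ g : Cfsg.PSp 3 F, orderOf g = 10) ∧
      (∃ g : Cfsg.PSp 3 F, orderOf g = 14)

/-- [PSPN2] `PSp₆(3)` has no element of order `26`. -/
def PSpN2 : Prop :=
  ∀ {F : Type u} [Field F] [Fintype F], Fintype.card F = 3 →
    ¬ ∃ g : Cfsg.PSp 3 F, orderOf g = 26

/-- [PSPODD] the odd part: `PSp₆(3)` has an element of order `15` and none of order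
`21`, `39`, `35`, `65`, `91`. -/
def PSpOdd : Prop :=
  ∀ {F : Type u} [Field F] [Fintype F], Fintype.card F = 3 →
    (∃ g : Cfsg.PSp 3 F, orderOf g = 15) ∧ (¬ ∃ g : Cfsg.PSp 3 F, orderOf g = 21) ∧
      (¬ ∃ g : Cfsg.PSp 3 F, orderOf g = 39) ∧ (¬ ∃ g : Cfsg.PSp 3 F, orderOf g = 35) ∧
      (¬ ∃ g : Cfsg.PSp 3 F, orderOf g = 65) ∧ (¬ ∃ g : Cfsg.PSp 3 F, orderOf g = 91)

/-! The packages: each is its statement under the statements it may use. -/

def PkgPM : Prop := PM.{u}
def PkgPI : Prop := PM.{u} → PI.{u}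
def PkgPMap : Prop := PMap.{u}
def PkgCH : Prop := CH.{u}
def PkgCls : Prop := CH.{u} → Cls.{u}
def PkgFpf : Prop := CH.{u} → Cls.{u} → PMap.{u} → Fpf.{u}
def PkgEx : Prop := Cls.{u} → Ex.{u}
def PkgFrob : Prop := Frob.{u}
def PkgStr : Prop := PM.{u} → PI.{u} → PMap.{u} → Str.{u}
def PkgLOrd : Prop := Str.{u} → Cls.{u} → Frob.{u} → LOrd.{u}
def PkgLPrime : Prop := Str.{u} → Cls.{u} → Frob.{u} → LPrime.{u}
def PkgLFpf : Prop := Str.{u} → Cls.{u} → Frob.{u} → Fpf.{u} → LFpf.{u}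
def PkgLEx : Prop := Ex.{u} → Frob.{u} → LEx.{u}
def PkgPgExt : Prop := PgExt.{u}
def PkgPSpV : Prop := PSpV.{u}
def PkgPSpY2 : Prop := PSpY2.{u}
def PkgPSpN2 : Prop := PSpN2.{u}
def PkgPSpOdd : Prop := PSpOdd.{u}

end Cfsg.Agent.Lib.Helper14.PG63
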