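import Mathlib
import Cfsg.Agent.Lib.Helper14.PG63.Defs

/-!
# PG63 [CH]: the Cayley–Hamilton identity of `Sz(8)` (helper14's own copy)
-/

set_option autoImplicit false

namespace Cfsg.Agent.Lib.Helper14.PG63

open Matrix

universe u

section

variable {F : Type u} [Field F]

/-- `J * Mᵀ * J`, explicitly -/
def adjJ (M : Matrix (Fin 4) (Fin 4) F) : Matrix (Fin 4) (Fin 4) F :=
  !![M 3 3, M 2 3, M 1 3, M 0 3; M 3 2, M 2 2, M 1 2, M 0 2; M 3 1, M 2 1, M 1 1, M 0 1;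
     M 3 0, M 2 0, M 1 0, M 0 0]

/-- the sum of the four principal minors on the diagonal of `star4` -/
def PP (M : Matrix (Fin 4) (Fin 4) F) : F :=
  (M 0 0 * M 1 1 - M 1 0 * M 0 1) + (M 0 0 * M 2 2 - M 2 0 * M 0 2) +
    (M 1 1 * M 3 3 - M 3 1 * M 1 3) + (M 2 2 * M 3 3 - M 3 2 * M 2 3)

theorem adjJ_eq (M : Matrix (Fin 4) (Fin 4) F) : J4 F * Mᵀ * J4 F = adjJ M := by
  ext i j
  fin_cases i <;> fin_cases j <;>
    simp [J4, adjJ, Matrix.mul_apply, Fin.sum_univ_four, Matrix.vecMul, dotProduct]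

theorem J4_mul_J4 : J4 F * J4 F = 1 := by
  ext i j
  fin_cases i <;> fin_cases j <;> simp [J4, Matrix.mul_apply, Fin.sum_univ_four, Matrix.one_apply]

theorem form_symm {M : Matrix (Fin 4) (Fin 4) F} (h : Mᵀ * J4 F * M = J4 F) :
    M * J4 F * Mᵀ = J4 F := by
  have h1 : (J4 F * Mᵀ * J4 F) * M = 1 := by
    rw [Matrix.mul_assoc, Matrix.mul_assoc, ← Matrix.mul_assoc Mᵀ, h, J4_mul_J4]
  have h2 : M * (J4 F * Mᵀ * J4 F) = 1 := mul_eq_one_comm.mp h1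
  calc M * J4 F * Mᵀ = M * J4 F * Mᵀ * (J4 F * J4 F) := by rw [J4_mul_J4, Matrix.mul_one]
    _ = (M * (J4 F * Mᵀ * J4 F)) * J4 F := by simp only [Matrix.mul_assoc]
    _ = J4 F := by rw [h2, Matrix.one_mul]

theorem mul_adjJ {M : Matrix (Fin 4) (Fin 4) F} (h : Mᵀ * J4 F * M = J4 F) :
    M * adjJ M = 1 := by
  have h1 : (J4 F * Mᵀ * J4 F) * M = 1 := by
    rw [Matrix.mul_assoc, Matrix.mul_assoc, ← Matrix.mul_assoc Mᵀ, h, J4_mul_J4]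
  rw [← adjJ_eq]
  exact mul_eq_one_comm.mp h1

variable [CharP F 2]

theorem add_pow_four (x y : F) : (x + y) ^ 4 = x ^ 4 + y ^ 4 := by
  have h2 : (2 : F) = 0 := CharTwo.two_eq_zero
  linear_combination (2 * x ^ 3 * y + 3 * x ^ 2 * y ^ 2 + 2 * x * y ^ 3) * h2

theorem trace_pow_four (M : Matrix (Fin 4) (Fin 4) F)
    (hs : Cfsg.Lie.star4 M = M.map (fun x => x ^ 4)) : M.trace ^ 4 = PP M := by
  have d0 := congrFun (congrFun hs 0) 0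
  have d1 := congrFun (congrFun hs 1) 1
  have d2 := congrFun (congrFun hs 2) 2
  have d3 := congrFun (congrFun hs 3) 3
  simp [Cfsg.Lie.star4, Cfsg.Lie.pairOf] at d0 d1 d2 d3
  have e : M.trace ^ 4 = M 0 0 ^ 4 + M 1 1 ^ 4 + M 2 2 ^ 4 + M 3 3 ^ 4 := by
    simp only [Matrix.trace, Fin.sum_univ_four, Matrix.diag_apply]
    rw [add_pow_four, add_pow_four, add_pow_four]
  rw [e]
  unfold PP
  linear_combination (-1 : F) * d0 - d1 - d2 - d3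

theorem key_h (M : Matrix (Fin 4) (Fin 4) F)
    (r1 : M 0 0 * M 3 3 + M 0 1 * M 3 2 + M 0 2 * M 3 1 + M 0 3 * M 3 0 = 1)
    (r2 : M 0 0 * M 3 3 + M 1 0 * M 2 3 + M 2 0 * M 1 3 + M 3 0 * M 0 3 = 1) :
    (M + adjJ M) * (M + adjJ M) + M.trace • (M + adjJ M) +
      PP M • (1 : Matrix (Fin 4) (Fin 4) F) = 0 := by
  have h2 : (2 : F) = 0 := CharTwo.two_eq_zero
  ext i j
  fin_cases i <;> fin_cases j
  · simp [adjJ, PP, Matrix.mul_apply, Fin.sum_univ_four, Matrix.trace]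
    linear_combination r1 + r2 + (1 + M 0 0 * M 0 0 + M 0 0 * M 1 1 + M 0 0 * M 2 2 + M 0 0 * M 3 3 + M 0 3 * M 3 0 + M 1 1 * M 3 3 + M 2 2 * M 3 3 + M 3 3 * M 3 3) * h2
  · simp [adjJ, PP, Matrix.mul_apply, Fin.sum_univ_four, Matrix.trace]
    linear_combination (M 0 0 * M 0 1 + M 0 0 * M 2 3 + M 0 1 * M 1 1 + M 0 1 * M 2 2 + M 0 1 * M 3 3 + M 0 2 * M 2 1 + M 0 3 * M 2 0 + M 0 3 * M 3 1 + M 1 1 * M 2 3 + M 1 3 * M 2 1 + M 2 2 * M 2 3 + M 2 3 * M 3 3) * h2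
  · simp [adjJ, PP, Matrix.mul_apply, Fin.sum_univ_four, Matrix.trace]
    linear_combination (M 0 0 * M 0 2 + M 0 0 * M 1 3 + M 0 1 * M 1 2 + M 0 2 * M 1 1 + M 0 2 * M 2 2 + M 0 2 * M 3 3 + M 0 3 * M 1 0 + M 0 3 * M 3 2 + M 1 1 * M 1 3 + M 1 2 * M 2 3 + M 1 3 * M 2 2 + M 1 3 * M 3 3) * h2
  · simp [adjJ, PP, Matrix.mul_apply, Fin.sum_univ_four, Matrix.trace]
    linear_combination ((3) * M 0 0 * M 0 3 + M 0 1 * M 0 2 + M 0 1 * M 1 3 + M 0 2 * M 2 3 + M 0 3 * M 1 1 + M 0 3 * M 2 2 + (3) * M 0 3 * M 3 3 + M 1 3 * M 2 3) * h2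
  · simp [adjJ, PP, Matrix.mul_apply, Fin.sum_univ_four, Matrix.trace]
    linear_combination (M 0 0 * M 1 0 + M 0 0 * M 3 2 + M 0 2 * M 3 0 + M 1 0 * M 1 1 + M 1 0 * M 2 2 + M 1 0 * M 3 3 + M 1 1 * M 3 2 + M 1 2 * M 2 0 + M 1 2 * M 3 1 + M 1 3 * M 3 0 + M 2 2 * M 3 2 + M 3 2 * M 3 3) * h2
  · simp [adjJ, PP, Matrix.mul_apply, Fin.sum_univ_four, Matrix.trace]
    linear_combination r1 + r2 + (1 + M 0 0 * M 1 1 + M 0 0 * M 2 2 + (-1) * M 0 0 * M 3 3 + (-1) * M 0 3 * M 3 0 + M 1 1 * M 1 1 + (2) * M 1 1 * M 2 2 + M 1 1 * M 3 3 + (2) * M 1 2 * M 2 1 + M 2 2 * M 2 2 + M 2 2 * M 3 3) * h2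
  · simp [adjJ, PP, Matrix.mul_apply, Fin.sum_univ_four, Matrix.trace]
    linear_combination (M 0 0 * M 1 2 + M 0 2 * M 1 0 + M 0 2 * M 3 2 + M 1 0 * M 1 3 + (3) * M 1 1 * M 1 2 + (3) * M 1 2 * M 2 2 + M 1 2 * M 3 3 + M 1 3 * M 3 2) * h2
  · simp [adjJ, PP, Matrix.mul_apply, Fin.sum_univ_four, Matrix.trace]
    linear_combination (M 0 0 * M 0 2 + M 0 0 * M 1 3 + M 0 1 * M 1 2 + M 0 2 * M 1 1 + M 0 2 * M 2 2 + M 0 2 * M 3 3 + M 0 3 * M 1 0 + M 0 3 * M 3 2 + M 1 1 * M 1 3 + M 1 2 * M 2 3 + M 1 3 * M 2 2 + M 1 3 * M 3 3) * h2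
  · simp [adjJ, PP, Matrix.mul_apply, Fin.sum_univ_four, Matrix.trace]
    linear_combination (M 0 0 * M 2 0 + M 0 0 * M 3 1 + M 0 1 * M 3 0 + M 1 0 * M 2 1 + M 1 1 * M 2 0 + M 1 1 * M 3 1 + M 2 0 * M 2 2 + M 2 0 * M 3 3 + M 2 1 * M 3 2 + M 2 2 * M 3 1 + M 2 3 * M 3 0 + M 3 1 * M 3 3) * h2
  · simp [adjJ, PP, Matrix.mul_apply, Fin.sum_univ_four, Matrix.trace]
    linear_combination (M 0 0 * M 2 1 + M 0 1 * M 2 0 + M 0 1 * M 3 1 + (3) * M 1 1 * M 2 1 + M 2 0 * M 2 3 + (3) * M 2 1 * M 2 2 + M 2 1 * M 3 3 + M 2 3 * M 3 1) * h2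
  · simp [adjJ, PP, Matrix.mul_apply, Fin.sum_univ_four, Matrix.trace]
    linear_combination r1 + r2 + (1 + M 0 0 * M 1 1 + M 0 0 * M 2 2 + (-1) * M 0 0 * M 3 3 + (-1) * M 0 3 * M 3 0 + M 1 1 * M 1 1 + (2) * M 1 1 * M 2 2 + M 1 1 * M 3 3 + (2) * M 1 2 * M 2 1 + M 2 2 * M 2 2 + M 2 2 * M 3 3) * h2
  · simp [adjJ, PP, Matrix.mul_apply, Fin.sum_univ_four, Matrix.trace]
    linear_combination (M 0 0 * M 0 1 + M 0 0 * M 2 3 + M 0 1 * M 1 1 + M 0 1 * M 2 2 + M 0 1 * M 3 3 + M 0 2 * M 2 1 + M 0 3 * M 2 0 + M 0 3 * M 3 1 + M 1 1 * M 2 3 + M 1 3 * M 2 1 + M 2 2 * M 2 3 + M 2 3 * M 3 3) * h2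
  · simp [adjJ, PP, Matrix.mul_apply, Fin.sum_univ_four, Matrix.trace]
    linear_combination ((3) * M 0 0 * M 3 0 + M 1 0 * M 2 0 + M 1 0 * M 3 1 + M 1 1 * M 3 0 + M 2 0 * M 3 2 + M 2 2 * M 3 0 + (3) * M 3 0 * M 3 3 + M 3 1 * M 3 2) * h2
  · simp [adjJ, PP, Matrix.mul_apply, Fin.sum_univ_four, Matrix.trace]
    linear_combination (M 0 0 * M 2 0 + M 0 0 * M 3 1 + M 0 1 * M 3 0 + M 1 0 * M 2 1 + M 1 1 * M 2 0 + M 1 1 * M 3 1 + M 2 0 * M 2 2 + M 2 0 * M 3 3 + M 2 1 * M 3 2 + M 2 2 * M 3 1 + M 2 3 * M 3 0 + M 3 1 * M 3 3) * h2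
  · simp [adjJ, PP, Matrix.mul_apply, Fin.sum_univ_four, Matrix.trace]
    linear_combination (M 0 0 * M 1 0 + M 0 0 * M 3 2 + M 0 2 * M 3 0 + M 1 0 * M 1 1 + M 1 0 * M 2 2 + M 1 0 * M 3 3 + M 1 1 * M 3 2 + M 1 2 * M 2 0 + M 1 2 * M 3 1 + M 1 3 * M 3 0 + M 2 2 * M 3 2 + M 3 2 * M 3 3) * h2
  · simp [adjJ, PP, Matrix.mul_apply, Fin.sum_univ_four, Matrix.trace]
    linear_combination r1 + r2 + (1 + M 0 0 * M 0 0 + M 0 0 * M 1 1 + M 0 0 * M 2 2 + M 0 0 * M 3 3 + M 0 3 * M 3 0 + M 1 1 * M 3 3 + M 2 2 * M 3 3 + M 3 3 * M 3 3) * h2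

theorem ch_of_pred (M : Matrix (Fin 4) (Fin 4) F) (hM : Pred M) :
    M ^ 4 + M.trace • M ^ 3 + M.trace ^ 4 • M ^ 2 + M.trace • M + 1 = 0 := by
  obtain ⟨hform, hstar⟩ := hM
  have hform' := form_symm hform
  have h2 : (2 : F) = 0 := CharTwo.two_eq_zero
  have r1 : M 0 0 * M 3 3 + M 0 1 * M 3 2 + M 0 2 * M 3 1 + M 0 3 * M 3 0 = 1 := by
    have := congrFun (congrFun hform' 0) 3
    simp [J4, Matrix.mul_apply, Fin.sum_univ_four] at this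
    linear_combination this
  have r2 : M 0 0 * M 3 3 + M 1 0 * M 2 3 + M 2 0 * M 1 3 + M 3 0 * M 0 3 = 1 := by
    have := congrFun (congrFun hform 0) 3
    simp [J4, Matrix.mul_apply, Fin.sum_univ_four] at this
    linear_combination this
  have hkey := key_h M r1 r2
  rw [← trace_pow_four M hstar] at hkey
  have hinv : M * adjJ M = 1 := mul_adjJ hform
  have hinv' : adjJ M * M = 1 := mul_eq_one_comm.mp hinv
  set h := M + adjJ M with hh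
  set c := M.trace with hc
  have hMh : M * h = M * M + 1 := by rw [hh, Matrix.mul_add, hinv]
  have hhM : h * M = M * M + 1 := by rw [hh, Matrix.add_mul, hinv']
  have two_smul_zero : ∀ A : Matrix (Fin 4) (Fin 4) F, A + A = 0 := by
    intro A
    ext i j
    exact CharTwo.add_self_eq_zero _
  have e1 : M * M * (h * h) = M ^ 4 + 1 := by
    calc M * M * (h * h) = M * (M * h) * h := by simp only [Matrix.mul_assoc]
      _ = M * (M * M + 1) * h := by rw [hMh]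
      _ = (M * M + 1) * (M * h) := by
        simp only [Matrix.mul_add, Matrix.add_mul, Matrix.mul_one, Matrix.one_mul, Matrix.mul_assoc]
      _ = (M * M + 1) * (M * M + 1) := by rw [hMh]
      _ = M ^ 4 + (M * M + M * M) + 1 := by
        simp only [Matrix.mul_add, Matrix.add_mul, Matrix.mul_one, Matrix.one_mul, pow_succ,
          pow_zero, Matrix.mul_assoc]
        abel
      _ = M ^ 4 + 1 := by rw [two_smul_zero, add_zero]
  have e2 : M * M * (c • h) = c • M ^ 3 + c • M := by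
    calc M * M * (c • h) = c • (M * (M * h)) := by
          rw [Matrix.mul_smul, Matrix.mul_assoc]
      _ = c • (M * (M * M + 1)) := by rw [hMh]
      _ = c • M ^ 3 + c • M := by
        rw [Matrix.mul_add, Matrix.mul_one, smul_add]
        simp only [pow_succ, pow_zero, Matrix.one_mul, Matrix.mul_assoc]
  have e3 : M * M * (c ^ 4 • (1 : Matrix (Fin 4) (Fin 4) F)) = c ^ 4 • M ^ 2 := by
    rw [Matrix.mul_smul, Matrix.mul_one, pow_two]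
  have e4 := congrArg (fun A => M * M * A) hkey
  simp only [Matrix.mul_add, Matrix.mul_zero] at e4
  rw [e1, e2, e3] at e4
  rw [← e4]
  abel

/-- [CH] -/
theorem pkgCH : PkgCH.{u} := by
  intro F _ _ _ _ M hM
  exact ch_of_pred M hM

end

end Cfsg.Agent.Lib.Helper14.PG63
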