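import Mathlib
import Cfsg.Agent.Lib.Helper14.PG63.Defs

/-!
# S3664 (PG63): the final assembly from the packages
-/

set_option autoImplicit false

namespace Cfsg.Agent.Lib.Helper14.PG63

open Matrix

universe u

instance instFiniteRingAut (K : Type u) [Field K] [Finite K] : Finite (RingAut K) :=
  Finite.of_injective (fun e : RingAut K => (e : K → K)) DFunLike.coe_injective

/-- the prime graph of `PSp₆(3)` from the four packages -/
theorem psp_graph (hV : PSpV.{u}) (hY2 : PSpY2.{u}) (hN2 : PSpN2.{u}) (hOdd : PSpOdd.{u})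
    {F : Type u} [Field F] [Fintype F] (hF : Fintype.card F = 3) (p q : ℕ) (hp : p.Prime)
    (hq : q.Prime) (hpq : p ≠ q) :
    (∃ g : Cfsg.PSp 3 F, orderOf g = p * q) ↔ E p q := by
  obtain ⟨h6, h10, h14⟩ := hY2 hF
  obtain ⟨h15, h21, h39, h35, h65, h91⟩ := hOdd hF
  have h26 := hN2 hF
  constructor
  · rintro ⟨g, hg⟩
    haveI : Finite (Cfsg.PSp 3 F) := inferInstance
    have hdvd : p * q ∣ Nat.card (Cfsg.PSp 3 F) := hg ▸ orderOf_dvd_natCard g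
    have hVp : Vx p := (hV hF p hp).mp ((dvd_mul_right p q).trans hdvd)
    have hVq : Vx q := (hV hF q hq).mp ((dvd_mul_left q p).trans hdvd)
    have k26 : p * q ≠ 26 := fun h => h26 ⟨g, hg.trans h⟩
    have k21 : p * q ≠ 21 := fun h => h21 ⟨g, hg.trans h⟩
    have k39 : p * q ≠ 39 := fun h => h39 ⟨g, hg.trans h⟩
    have k35 : p * q ≠ 35 := fun h => h35 ⟨g, hg.trans h⟩
    have k65 : p * q ≠ 65 := fun h => h65 ⟨g, hg.trans h⟩
    have k91 : p * q ≠ 91 := fun h => h91 ⟨g, hg.trans h⟩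
    unfold E
    rcases hVp with rfl | rfl | rfl | rfl | rfl <;> rcases hVq with rfl | rfl | rfl | rfl | rfl <;>
      omega
  · intro hE
    rcases hE with ⟨rfl, rfl⟩ | ⟨rfl, rfl⟩ | ⟨rfl, rfl⟩ | ⟨rfl, rfl⟩ | ⟨rfl, rfl⟩ | ⟨rfl, rfl⟩ |
      ⟨rfl, rfl⟩ | ⟨rfl, rfl⟩
    · exact h6
    · exact h6
    · exact h10
    · exact h10
    · exact h15
    · exact h15
    · exact h14
    · exact h14

section HSide

variable {K : Type} [Field K] [Fintype K] [CharP K 2]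

theorem wk_add_self (k : ℕ) (v : Wk K k) : v + v = 0 := by
  funext i
  ext a b
  exact CharTwo.add_self_eq_zero _

instance instFiniteAmb : Finite (Amb K) :=
  Finite.of_equiv _ (SemidirectProduct.equivProd (φ := mapHom K)).symm

instance instFiniteHk (k : ℕ) : Finite (Hk K k) :=
  Finite.of_equiv _ (SemidirectProduct.equivProd (φ := affHom ↥(L K) (Wk K k))).symm

theorem card_wk (hK : Fintype.card K = 8) (k : ℕ) : Nat.card (Wk K k) = 2 ^ (48 * k) := by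
  have h1 : Nat.card (Matrix (Fin 4) (Fin 4) K) = 2 ^ 48 := by
    show Nat.card (Fin 4 → Fin 4 → K) = 2 ^ 48
    rw [Nat.card_fun, Nat.card_fun, Nat.card_eq_fintype_card, Nat.card_eq_fintype_card,
      Fintype.card_fin, hK]
    norm_num
  show Nat.card (Fin k → Matrix (Fin 4) (Fin 4) K) = 2 ^ (48 * k)
  rw [Nat.card_fun, h1, Nat.card_eq_fintype_card, Fintype.card_fin, ← pow_mul]

theorem card_hk (hK : Fintype.card K = 8) (k : ℕ) :
    Nat.card (Hk K k) = 2 ^ (48 * k) * Nat.card ↥(L K) := by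
  rw [SemidirectProduct.card, ← card_wk hK k]
  rfl

/-- the vertices of the prime graph of `H_k` -/
theorem hk_vertices (hLPrime : LPrime.{0}) (hLEx : LEx.{0}) (hK : Fintype.card K = 8) (k : ℕ)
    (hk : 1 ≤ k) (p : ℕ) (hp : p.Prime) : p ∣ Nat.card (Hk K k) ↔ Vx p := by
  rw [card_hk hK k]
  obtain ⟨⟨x6, hx6⟩, ⟨x15, hx15⟩, ⟨x13, hx13⟩, ⟨x5, hx5, -⟩, ⟨x7, hx7, -⟩⟩ := hLEx hK
  constructor
  · intro h
    rcases (Nat.Prime.dvd_mul hp).mp h with h1 | h1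
    · have h2 := (Nat.prime_dvd_prime_iff_eq hp Nat.prime_two).mp (hp.dvd_of_dvd_pow h1)
      exact Or.inl h2
    · haveI : Fact p.Prime := ⟨hp⟩
      obtain ⟨x, hx⟩ := exists_prime_orderOf_dvd_card' p h1
      exact hLPrime hK x p hp hx
  · intro h
    have d6 : 6 ∣ Nat.card ↥(L K) := hx6 ▸ orderOf_dvd_natCard x6
    have d15 : 15 ∣ Nat.card ↥(L K) := hx15 ▸ orderOf_dvd_natCard x15
    have d13 : 13 ∣ Nat.card ↥(L K) := hx13 ▸ orderOf_dvd_natCard x13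
    have d7 : 7 ∣ Nat.card ↥(L K) := hx7 ▸ orderOf_dvd_natCard x7
    rcases h with rfl | rfl | rfl | rfl | rfl
    · exact Dvd.dvd.mul_left ((show 2 ∣ 6 by norm_num).trans d6) _
    · exact Dvd.dvd.mul_left ((show 3 ∣ 6 by norm_num).trans d6) _
    · exact Dvd.dvd.mul_left ((show 5 ∣ 15 by norm_num).trans d15) _
    · exact Dvd.dvd.mul_left d7 _
    · exact Dvd.dvd.mul_left d13 _

theorem fx_of_single (k : ℕ) (hk : 1 ≤ k) (p : ℕ)
    (h : ∃ x : ↥(L K), orderOf x = p ∧ ∃ X : Matrix (Fin 4) (Fin 4) K, X ≠ 0 ∧ x • X = X) :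
    Fx ↥(L K) (Wk K k) p := by
  obtain ⟨x, hx, X, hX, hfix⟩ := h
  refine ⟨x, hx, fun _ => X, ?_, ?_⟩
  · intro hc
    exact hX (congrFun hc ⟨0, hk⟩)
  · funext i
    exact hfix

theorem single_of_fx (k : ℕ) (p : ℕ) (h : Fx ↥(L K) (Wk K k) p) :
    ∃ x : ↥(L K), orderOf x = p ∧ ∃ X : Matrix (Fin 4) (Fin 4) K, X ≠ 0 ∧ x • X = X := by
  obtain ⟨x, hx, v, hv, hfix⟩ := h
  have hex : ∃ i, v i ≠ 0 := by
    by_contra hc
    push_neg at hc
    exact hv (funext hc)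
  obtain ⟨i, hi⟩ := hex
  exact ⟨x, hx, v i, hi, congrFun hfix i⟩

/-- an odd prime order with a nonzero fixed point is `3`, `5` or `7` -/
theorem fx_odd (hLPrime : LPrime.{0}) (hLFpf : LFpf.{0}) (hK : Fintype.card K = 8) (k : ℕ)
    (p : ℕ) (hp : p.Prime) (hp2 : p ≠ 2) (h : Fx ↥(L K) (Wk K k) p) :
    p = 3 ∨ p = 5 ∨ p = 7 := by
  obtain ⟨x, hx, X, hX, hfix⟩ := single_of_fx k p h
  rcases hLPrime hK x p hp hx with rfl | rfl | rfl | rfl | rfl
  · exact absurd rfl hp2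
  · exact Or.inl rfl
  · exact Or.inr (Or.inl rfl)
  · exact Or.inr (Or.inr rfl)
  · exact absurd (hLFpf hK x hx X hfix) hX

/-- the edges of the prime graph of `H_k` -/
theorem hk_edges (hPgExt : PgExt.{0}) (hLOrd : LOrd.{0}) (hLPrime : LPrime.{0})
    (hLFpf : LFpf.{0}) (hLEx : LEx.{0}) (hK : Fintype.card K = 8) (k : ℕ) (hk : 1 ≤ k)
    (p q : ℕ) (hp : p.Prime) (hq : q.Prime) (hpq : p ≠ q) :
    (∃ y : Hk K k, orderOf y = p * q) ↔ E p q := by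
  rw [hPgExt (G := ↥(L K)) (V := Wk K k) (wk_add_self k) p q hp hq hpq]
  obtain ⟨h6, h15, -, h5, h7⟩ := hLEx hK
  constructor
  · rintro (⟨x, hx⟩ | ⟨rfl, hfx⟩ | ⟨rfl, hfx⟩)
    · unfold E
      rcases hLOrd hK x p q hp hq hpq hx with ⟨rfl, rfl⟩ | ⟨rfl, rfl⟩ | ⟨rfl, rfl⟩ | ⟨rfl, rfl⟩ <;>
        simp
    · unfold E
      rcases fx_odd hLPrime hLFpf hK k p hp hpq hfx with rfl | rfl | rfl <;> simp
    · unfold E
      rcases fx_odd hLPrime hLFpf hK k q hq (Ne.symm hpq) hfx with rfl | rfl | rfl <;> simp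
  · intro hE
    rcases hE with ⟨rfl, rfl⟩ | ⟨rfl, rfl⟩ | ⟨rfl, rfl⟩ | ⟨rfl, rfl⟩ | ⟨rfl, rfl⟩ | ⟨rfl, rfl⟩ |
      ⟨rfl, rfl⟩ | ⟨rfl, rfl⟩
    · exact Or.inl h6
    · exact Or.inl h6
    · exact Or.inr (Or.inr ⟨rfl, fx_of_single k hk 5 h5⟩)
    · exact Or.inr (Or.inl ⟨rfl, fx_of_single k hk 5 h5⟩)
    · exact Or.inl h15
    · exact Or.inl h15
    · exact Or.inr (Or.inr ⟨rfl, fx_of_single k hk 7 h7⟩)
    · exact Or.inr (Or.inl ⟨rfl, fx_of_single k hk 7 h7⟩)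

end HSide

/-- S3664 from the packages -/
theorem s3664_of (hPgExt : PgExt.{0}) (hLOrd : LOrd.{0}) (hLPrime : LPrime.{0})
    (hLFpf : LFpf.{0}) (hLEx : LEx.{0}) (hV : PSpV.{u}) (hY2 : PSpY2.{u}) (hN2 : PSpN2.{u})
    (hOdd : PSpOdd.{u}) {F : Type u} [Field F] [Fintype F] (hF : Fintype.card F = 3) (N : ℕ) :
    ∃ (H : Type) (_ : Group H) (_ : Finite H), N < Nat.card H ∧
      ((∀ p : ℕ, p.Prime → (p ∣ Nat.card (Cfsg.PSp 3 F) ↔ p ∣ Nat.card H)) ∧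
      (∀ p q : ℕ, p.Prime → q.Prime → p ≠ q →
        ((∃ g : (Cfsg.PSp 3 F), orderOf g = p * q) ↔ (∃ g : H, orderOf g = p * q)))) := by
  haveI : Fact (Nat.Prime 2) := ⟨Nat.prime_two⟩
  letI : Fintype (GaloisField 2 3) := Fintype.ofFinite _
  have hK : Fintype.card (GaloisField 2 3) = 8 := by
    rw [← Nat.card_eq_fintype_card, GaloisField.card 2 3 (by norm_num)]
    norm_num
  refine ⟨Hk (GaloisField 2 3) (N + 1), inferInstance, inferInstance, ?_, ?_, ?_⟩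
  · rw [card_hk hK]
    have h1 : N < 2 ^ N := Nat.lt_two_pow_self
    have h2 : 2 ^ N ≤ 2 ^ (48 * (N + 1)) := Nat.pow_le_pow_right (by norm_num) (by omega)
    have h3 : 1 ≤ Nat.card ↥(L (GaloisField 2 3)) := Nat.one_le_iff_ne_zero.mpr Nat.card_pos.ne'
    calc N < 2 ^ N := h1
      _ ≤ 2 ^ (48 * (N + 1)) := h2
      _ = 2 ^ (48 * (N + 1)) * 1 := (mul_one _).symm
      _ ≤ 2 ^ (48 * (N + 1)) * Nat.card ↥(L (GaloisField 2 3)) := Nat.mul_le_mul_left _ h3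
  · intro p hp
    rw [hV hF p hp, hk_vertices hLPrime hLEx hK (N + 1) (by omega) p hp]
  · intro p q hp hq hpq
    rw [psp_graph hV hY2 hN2 hOdd hF p q hp hq hpq,
      hk_edges hPgExt hLOrd hLPrime hLFpf hLEx hK (N + 1) (by omega) p q hp hq hpq]

end Cfsg.Agent.Lib.Helper14.PG63
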