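import Mathlib
import Cfsg.Agent.Lib.Helper14.PG63.Defs
import Cfsg.Agent.Lib.Helper14.PG63.CH

/-!
# PG63 [PM]: `Pred` is closed under products (helper14's own copy)
-/

set_option autoImplicit false

namespace Cfsg.Agent.Lib.Helper14.PG63

open Matrix

universe u

section

variable {F : Type u} [Field F] [CharP F 2]

theorem rowrel {M : Matrix (Fin 4) (Fin 4) F} (hA : M * J4 F * Mᵀ = J4 F) (k l : Fin 4) :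
    M k 0 * M l 3 + M k 1 * M l 2 + M k 2 * M l 1 + M k 3 * M l 0 = J4 F k l := by
  have e : (M * J4 F * Mᵀ) k l =
      M k 0 * M l 3 + M k 1 * M l 2 + M k 2 * M l 1 + M k 3 * M l 0 := by
    simp [J4, Matrix.mul_apply, Fin.sum_univ_four]
    ring
  rw [← e, hA]

theorem colrel {M : Matrix (Fin 4) (Fin 4) F} (hB : Mᵀ * J4 F * M = J4 F) (i j : Fin 4) :
    M 0 i * M 3 j + M 1 i * M 2 j + M 2 i * M 1 j + M 3 i * M 0 j = J4 F i j := by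
  have e : (Mᵀ * J4 F * M) i j =
      M 0 i * M 3 j + M 1 i * M 2 j + M 2 i * M 1 j + M 3 i * M 0 j := by
    simp [J4, Matrix.mul_apply, Fin.sum_univ_four]
    ring
  rw [← e, hB]

theorem star4_mul (M M' : Matrix (Fin 4) (Fin 4) F) (hA : M * J4 F * Mᵀ = J4 F)
    (hB : M'ᵀ * J4 F * M' = J4 F) :
    Cfsg.Lie.star4 (M * M') = Cfsg.Lie.star4 M * Cfsg.Lie.star4 M' := by
  have h2 : (2 : F) = 0 := CharTwo.two_eq_zero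
  have A01 := rowrel hA 0 1
  have A02 := rowrel hA 0 2
  have A13 := rowrel hA 1 3
  have A23 := rowrel hA 2 3
  have B01 := colrel hB 0 1
  have B02 := colrel hB 0 2
  have B13 := colrel hB 1 3
  have B23 := colrel hB 2 3
  simp [J4] at A01 A02 A13 A23 B01 B02 B13 B23
  ext p r
  fin_cases p <;> fin_cases r
  · simp [Cfsg.Lie.star4, Cfsg.Lie.pairOf, Matrix.mul_apply, Fin.sum_univ_four]
    linear_combination (M 0 0 * M 1 3 - M 1 0 * M 0 3) * B01 + (M' 1 0 * M' 2 1 - M' 2 0 * M' 1 1) * A01 - ((M' 3 0 * M' 0 1 + M' 2 0 * M' 1 1) * (M 0 0 * M 1 3 - M 1 0 * M 0 3) + (M 1 0 * M 0 3 + M 1 1 * M 0 2) * (M' 1 0 * M' 2 1 - M' 2 0 * M' 1 1) + (M 0 0 * M 1 3 - M 1 0 * M 0 3) * (M' 1 0 * M' 2 1 - M' 2 0 * M' 1 1)) * h2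
  · simp [Cfsg.Lie.star4, Cfsg.Lie.pairOf, Matrix.mul_apply, Fin.sum_univ_four]
    linear_combination (M 0 0 * M 1 3 - M 1 0 * M 0 3) * B02 + (M' 1 0 * M' 2 2 - M' 2 0 * M' 1 2) * A01 - ((M' 3 0 * M' 0 2 + M' 2 0 * M' 1 2) * (M 0 0 * M 1 3 - M 1 0 * M 0 3) + (M 1 0 * M 0 3 + M 1 1 * M 0 2) * (M' 1 0 * M' 2 2 - M' 2 0 * M' 1 2) + (M 0 0 * M 1 3 - M 1 0 * M 0 3) * (M' 1 0 * M' 2 2 - M' 2 0 * M' 1 2)) * h2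
  · simp [Cfsg.Lie.star4, Cfsg.Lie.pairOf, Matrix.mul_apply, Fin.sum_univ_four]
    linear_combination (M 0 0 * M 1 3 - M 1 0 * M 0 3) * B13 + (M' 1 1 * M' 2 3 - M' 2 1 * M' 1 3) * A01 - ((M' 3 1 * M' 0 3 + M' 2 1 * M' 1 3) * (M 0 0 * M 1 3 - M 1 0 * M 0 3) + (M 1 0 * M 0 3 + M 1 1 * M 0 2) * (M' 1 1 * M' 2 3 - M' 2 1 * M' 1 3) + (M 0 0 * M 1 3 - M 1 0 * M 0 3) * (M' 1 1 * M' 2 3 - M' 2 1 * M' 1 3)) * h2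
  · simp [Cfsg.Lie.star4, Cfsg.Lie.pairOf, Matrix.mul_apply, Fin.sum_univ_four]
    linear_combination (M 0 0 * M 1 3 - M 1 0 * M 0 3) * B23 + (M' 1 2 * M' 2 3 - M' 2 2 * M' 1 3) * A01 - ((M' 3 2 * M' 0 3 + M' 2 2 * M' 1 3) * (M 0 0 * M 1 3 - M 1 0 * M 0 3) + (M 1 0 * M 0 3 + M 1 1 * M 0 2) * (M' 1 2 * M' 2 3 - M' 2 2 * M' 1 3) + (M 0 0 * M 1 3 - M 1 0 * M 0 3) * (M' 1 2 * M' 2 3 - M' 2 2 * M' 1 3)) * h2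
  · simp [Cfsg.Lie.star4, Cfsg.Lie.pairOf, Matrix.mul_apply, Fin.sum_univ_four]
    linear_combination (M 0 0 * M 2 3 - M 2 0 * M 0 3) * B01 + (M' 1 0 * M' 2 1 - M' 2 0 * M' 1 1) * A02 - ((M' 3 0 * M' 0 1 + M' 2 0 * M' 1 1) * (M 0 0 * M 2 3 - M 2 0 * M 0 3) + (M 2 0 * M 0 3 + M 2 1 * M 0 2) * (M' 1 0 * M' 2 1 - M' 2 0 * M' 1 1) + (M 0 0 * M 2 3 - M 2 0 * M 0 3) * (M' 1 0 * M' 2 1 - M' 2 0 * M' 1 1)) * h2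
  · simp [Cfsg.Lie.star4, Cfsg.Lie.pairOf, Matrix.mul_apply, Fin.sum_univ_four]
    linear_combination (M 0 0 * M 2 3 - M 2 0 * M 0 3) * B02 + (M' 1 0 * M' 2 2 - M' 2 0 * M' 1 2) * A02 - ((M' 3 0 * M' 0 2 + M' 2 0 * M' 1 2) * (M 0 0 * M 2 3 - M 2 0 * M 0 3) + (M 2 0 * M 0 3 + M 2 1 * M 0 2) * (M' 1 0 * M' 2 2 - M' 2 0 * M' 1 2) + (M 0 0 * M 2 3 - M 2 0 * M 0 3) * (M' 1 0 * M' 2 2 - M' 2 0 * M' 1 2)) * h2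
  · simp [Cfsg.Lie.star4, Cfsg.Lie.pairOf, Matrix.mul_apply, Fin.sum_univ_four]
    linear_combination (M 0 0 * M 2 3 - M 2 0 * M 0 3) * B13 + (M' 1 1 * M' 2 3 - M' 2 1 * M' 1 3) * A02 - ((M' 3 1 * M' 0 3 + M' 2 1 * M' 1 3) * (M 0 0 * M 2 3 - M 2 0 * M 0 3) + (M 2 0 * M 0 3 + M 2 1 * M 0 2) * (M' 1 1 * M' 2 3 - M' 2 1 * M' 1 3) + (M 0 0 * M 2 3 - M 2 0 * M 0 3) * (M' 1 1 * M' 2 3 - M' 2 1 * M' 1 3)) * h2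
  · simp [Cfsg.Lie.star4, Cfsg.Lie.pairOf, Matrix.mul_apply, Fin.sum_univ_four]
    linear_combination (M 0 0 * M 2 3 - M 2 0 * M 0 3) * B23 + (M' 1 2 * M' 2 3 - M' 2 2 * M' 1 3) * A02 - ((M' 3 2 * M' 0 3 + M' 2 2 * M' 1 3) * (M 0 0 * M 2 3 - M 2 0 * M 0 3) + (M 2 0 * M 0 3 + M 2 1 * M 0 2) * (M' 1 2 * M' 2 3 - M' 2 2 * M' 1 3) + (M 0 0 * M 2 3 - M 2 0 * M 0 3) * (M' 1 2 * M' 2 3 - M' 2 2 * M' 1 3)) * h2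
  · simp [Cfsg.Lie.star4, Cfsg.Lie.pairOf, Matrix.mul_apply, Fin.sum_univ_four]
    linear_combination (M 1 0 * M 3 3 - M 3 0 * M 1 3) * B01 + (M' 1 0 * M' 2 1 - M' 2 0 * M' 1 1) * A13 - ((M' 3 0 * M' 0 1 + M' 2 0 * M' 1 1) * (M 1 0 * M 3 3 - M 3 0 * M 1 3) + (M 3 0 * M 1 3 + M 3 1 * M 1 2) * (M' 1 0 * M' 2 1 - M' 2 0 * M' 1 1) + (M 1 0 * M 3 3 - M 3 0 * M 1 3) * (M' 1 0 * M' 2 1 - M' 2 0 * M' 1 1)) * h2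
  · simp [Cfsg.Lie.star4, Cfsg.Lie.pairOf, Matrix.mul_apply, Fin.sum_univ_four]
    linear_combination (M 1 0 * M 3 3 - M 3 0 * M 1 3) * B02 + (M' 1 0 * M' 2 2 - M' 2 0 * M' 1 2) * A13 - ((M' 3 0 * M' 0 2 + M' 2 0 * M' 1 2) * (M 1 0 * M 3 3 - M 3 0 * M 1 3) + (M 3 0 * M 1 3 + M 3 1 * M 1 2) * (M' 1 0 * M' 2 2 - M' 2 0 * M' 1 2) + (M 1 0 * M 3 3 - M 3 0 * M 1 3) * (M' 1 0 * M' 2 2 - M' 2 0 * M' 1 2)) * h2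
  · simp [Cfsg.Lie.star4, Cfsg.Lie.pairOf, Matrix.mul_apply, Fin.sum_univ_four]
    linear_combination (M 1 0 * M 3 3 - M 3 0 * M 1 3) * B13 + (M' 1 1 * M' 2 3 - M' 2 1 * M' 1 3) * A13 - ((M' 3 1 * M' 0 3 + M' 2 1 * M' 1 3) * (M 1 0 * M 3 3 - M 3 0 * M 1 3) + (M 3 0 * M 1 3 + M 3 1 * M 1 2) * (M' 1 1 * M' 2 3 - M' 2 1 * M' 1 3) + (M 1 0 * M 3 3 - M 3 0 * M 1 3) * (M' 1 1 * M' 2 3 - M' 2 1 * M' 1 3)) * h2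
  · simp [Cfsg.Lie.star4, Cfsg.Lie.pairOf, Matrix.mul_apply, Fin.sum_univ_four]
    linear_combination (M 1 0 * M 3 3 - M 3 0 * M 1 3) * B23 + (M' 1 2 * M' 2 3 - M' 2 2 * M' 1 3) * A13 - ((M' 3 2 * M' 0 3 + M' 2 2 * M' 1 3) * (M 1 0 * M 3 3 - M 3 0 * M 1 3) + (M 3 0 * M 1 3 + M 3 1 * M 1 2) * (M' 1 2 * M' 2 3 - M' 2 2 * M' 1 3) + (M 1 0 * M 3 3 - M 3 0 * M 1 3) * (M' 1 2 * M' 2 3 - M' 2 2 * M' 1 3)) * h2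
  · simp [Cfsg.Lie.star4, Cfsg.Lie.pairOf, Matrix.mul_apply, Fin.sum_univ_four]
    linear_combination (M 2 0 * M 3 3 - M 3 0 * M 2 3) * B01 + (M' 1 0 * M' 2 1 - M' 2 0 * M' 1 1) * A23 - ((M' 3 0 * M' 0 1 + M' 2 0 * M' 1 1) * (M 2 0 * M 3 3 - M 3 0 * M 2 3) + (M 3 0 * M 2 3 + M 3 1 * M 2 2) * (M' 1 0 * M' 2 1 - M' 2 0 * M' 1 1) + (M 2 0 * M 3 3 - M 3 0 * M 2 3) * (M' 1 0 * M' 2 1 - M' 2 0 * M' 1 1)) * h2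
  · simp [Cfsg.Lie.star4, Cfsg.Lie.pairOf, Matrix.mul_apply, Fin.sum_univ_four]
    linear_combination (M 2 0 * M 3 3 - M 3 0 * M 2 3) * B02 + (M' 1 0 * M' 2 2 - M' 2 0 * M' 1 2) * A23 - ((M' 3 0 * M' 0 2 + M' 2 0 * M' 1 2) * (M 2 0 * M 3 3 - M 3 0 * M 2 3) + (M 3 0 * M 2 3 + M 3 1 * M 2 2) * (M' 1 0 * M' 2 2 - M' 2 0 * M' 1 2) + (M 2 0 * M 3 3 - M 3 0 * M 2 3) * (M' 1 0 * M' 2 2 - M' 2 0 * M' 1 2)) * h2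
  · simp [Cfsg.Lie.star4, Cfsg.Lie.pairOf, Matrix.mul_apply, Fin.sum_univ_four]
    linear_combination (M 2 0 * M 3 3 - M 3 0 * M 2 3) * B13 + (M' 1 1 * M' 2 3 - M' 2 1 * M' 1 3) * A23 - ((M' 3 1 * M' 0 3 + M' 2 1 * M' 1 3) * (M 2 0 * M 3 3 - M 3 0 * M 2 3) + (M 3 0 * M 2 3 + M 3 1 * M 2 2) * (M' 1 1 * M' 2 3 - M' 2 1 * M' 1 3) + (M 2 0 * M 3 3 - M 3 0 * M 2 3) * (M' 1 1 * M' 2 3 - M' 2 1 * M' 1 3)) * h2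
  · simp [Cfsg.Lie.star4, Cfsg.Lie.pairOf, Matrix.mul_apply, Fin.sum_univ_four]
    linear_combination (M 2 0 * M 3 3 - M 3 0 * M 2 3) * B23 + (M' 1 2 * M' 2 3 - M' 2 2 * M' 1 3) * A23 - ((M' 3 2 * M' 0 3 + M' 2 2 * M' 1 3) * (M 2 0 * M 3 3 - M 3 0 * M 2 3) + (M 3 0 * M 2 3 + M 3 1 * M 2 2) * (M' 1 2 * M' 2 3 - M' 2 2 * M' 1 3) + (M 2 0 * M 3 3 - M 3 0 * M 2 3) * (M' 1 2 * M' 2 3 - M' 2 2 * M' 1 3)) * h2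

/-- [PM] -/
theorem pkgPM : PkgPM.{u} := by
  intro F _ _ M M' hM hM'
  obtain ⟨hf, hs⟩ := hM
  obtain ⟨hf', hs'⟩ := hM'
  refine ⟨?_, ?_⟩
  · calc (M * M')ᵀ * J4 F * (M * M') = M'ᵀ * (Mᵀ * J4 F * M) * M' := by
          rw [Matrix.transpose_mul]
          simp only [Matrix.mul_assoc]
      _ = J4 F := by rw [hf, hf']
  · have hθ : (fun x : F => x ^ 4) = ⇑((frobenius F 2).comp (frobenius F 2)) := by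
      funext x
      simp [frobenius_def, ← pow_mul]
    rw [hθ, Matrix.map_mul, ← hθ, ← hs, ← hs']
    exact star4_mul M M' (form_symm hf) hf'

end

end Cfsg.Agent.Lib.Helper14.PG63
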