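import Mathlib
import Cfsg.Agent.Lib.Helper14.PG63.Glue
import Cfsg.Agent.Lib.Helper14.PG63.CH
import Cfsg.Agent.Lib.Helper14.PG63.PM
import Cfsg.Agent.Lib.Helper38.PG63.PMap
import Cfsg.Agent.Lib.Helper38.PG63.PI
import Cfsg.Agent.Lib.Helper38.PG63.Frob
import Cfsg.Agent.Lib.Helper38.PG63.Str
import Cfsg.Agent.Lib.Helper76.PG63.Cls
import Cfsg.Agent.Lib.Helper76.PG63.Fpf
import Cfsg.Agent.Lib.Helper73.PG63.Ex
import Cfsg.Agent.Lib.Helper11.PG63.LOrd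
import Cfsg.Agent.Lib.Helper11.PG63.LPrime
import Cfsg.Agent.Lib.Helper46.PG63.LFpf
import Cfsg.Agent.Lib.Helper97.PG63.LEx
import Cfsg.Agent.Lib.Helper45.PG63.PgExt
import Cfsg.Agent.Lib.Helper8.PG63.PSpV
import Cfsg.Agent.Lib.Helper8.PG63.PSpY2
import Cfsg.Agent.Lib.Helper35.PG63.PSpOdd

/-!
# S3664 (PG63): all packages put together
-/

set_option autoImplicit false

namespace Cfsg.Agent.Lib.Helper14.PG63

universe u

theorem thmPM : PM.{u} := pkgPM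
theorem thmPMap : PMap.{u} := Cfsg.Agent.Lib.Helper38.PG63.pkgPMap
theorem thmPI : PI.{u} := Cfsg.Agent.Lib.Helper38.PG63.pkgPI thmPM
theorem thmCH : CH.{u} := pkgCH
theorem thmCls : Cls.{u} := Cfsg.Agent.Lib.Helper76.PG63.pkgCls thmCH
theorem thmFpf : Fpf.{u} := Cfsg.Agent.Lib.Helper76.PG63.pkgFpf thmCH thmCls thmPMap
theorem thmEx : Ex.{u} := Cfsg.Agent.Lib.Helper73.PG63.pkgEx thmCls
theorem thmFrob : Frob.{u} := Cfsg.Agent.Lib.Helper38.PG63.pkgFrob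
theorem thmStr : Str.{u} := Cfsg.Agent.Lib.Helper38.PG63.pkgStr thmPM thmPI thmPMap
theorem thmLOrd : LOrd.{u} := Cfsg.Agent.Lib.Helper11.PG63.pkgLOrd thmStr thmCls thmFrob
theorem thmLPrime : LPrime.{u} := Cfsg.Agent.Lib.Helper11.PG63.pkgLPrime thmStr thmCls thmFrob
theorem thmLFpf : LFpf.{u} := Cfsg.Agent.Lib.Helper46.PG63.pkgLFpf thmStr thmCls thmFrob thmFpf
theorem thmLEx : LEx.{u} := Cfsg.Agent.Lib.Helper97.PG63.pkgLEx thmEx thmFrob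
theorem thmPgExt : PgExt.{u} := Cfsg.Agent.Lib.Helper45.PG63.pkgPgExt

/-- S3664 -/
theorem s3664 {F : Type u} [Field F] [Fintype F] (hF : Fintype.card F = 3) (N : ℕ) :
    ∃ (H : Type) (_ : Group H) (_ : Finite H), N < Nat.card H ∧
      ((∀ p : ℕ, p.Prime → (p ∣ Nat.card (Cfsg.PSp 3 F) ↔ p ∣ Nat.card H)) ∧
      (∀ p q : ℕ, p.Prime → q.Prime → p ≠ q →
        ((∃ g : (Cfsg.PSp 3 F), orderOf g = p * q) ↔ (∃ g : H, orderOf g = p * q)))) :=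
  s3664_of thmPgExt thmLOrd thmLPrime thmLFpf thmLEx Cfsg.Agent.Lib.Helper8.PG63.pkgPSpV
    Cfsg.Agent.Lib.Helper8.PG63.pkgPSpY2 Cfsg.Agent.Lib.Helper8.PG63.pkgPSpN2
    Cfsg.Agent.Lib.Helper35.PG63.pkgPSpOdd hF N

end Cfsg.Agent.Lib.Helper14.PG63
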